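import Mathlib
import Cfsg.Agent.Lib.Helper14.PG63.Defs

/-!
# PG63 (S3664): package [EX] — explicit elements of `Sz(8)` and fixed matrices
-/

set_option autoImplicit false

namespace Cfsg.Agent.Lib.Helper73.PG63

open Matrix Cfsg.Agent.Lib.Helper14.PG63

universe u

section Basic

variable {F : Type u} [Field F] [CharP F 2]

theorem pred_J4 : Pred (J4 F) := by
  constructor
  · ext i j
    fin_cases i <;> fin_cases j <;>
      simp [J4, Matrix.mul_apply, Fin.sum_univ_four]
  · ext i j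
    fin_cases i <;> fin_cases j <;>
      simp [J4, Cfsg.Lie.star4, Cfsg.Lie.pairOf, CharTwo.neg_eq]

theorem pred_N (b : F) (hb : b ^ 8 = b) : Pred (N b) := by
  constructor
  · ext i j
    fin_cases i <;> fin_cases j <;>
      simp [J4, N, Matrix.mul_apply, Fin.sum_univ_four, CharTwo.add_self_eq_zero]
  · ext i j
    fin_cases i <;> fin_cases j <;>
      simp [N, Cfsg.Lie.star4, Cfsg.Lie.pairOf, CharTwo.neg_eq]
    linear_combination (-(b ^ 8 + b)) * hb

theorem fix_X7 (a : F) (ha : a ^ 3 = a + 1) :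
    N a * X7 a * ((N a).map (fun x => x ^ 2))ᵀ = X7 a := by
  have h2 : (2 : F) = 0 := CharTwo.two_eq_zero
  ext i j
  fin_cases i <;> fin_cases j <;>
    simp [X7, N, Matrix.mul_apply, Fin.sum_univ_four, CharTwo.add_self_eq_zero]
  · linear_combination ((1 * a ^ 7) + (1 * a ^ 6) + (1 * a ^ 5) + (2 * a ^ 4) + (3 * a ^ 3) +
      (4 * a ^ 2) + (5 * a) + (8)) * ha + ((5 * a ^ 2) + (7 * a) + (4)) * h2
  · linear_combination ((2 * a) + (2)) * ha + ((1 * a ^ 2) + (2 * a) + (1)) * h2
  · linear_combination ((1 * a ^ 7) + (2 * a ^ 5) + (1 * a ^ 4) + (2 * a ^ 3) + (3 * a ^ 2) +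
      (4 * a) + (6)) * ha + ((4 * a ^ 2) + (5 * a) + (3)) * h2
  · linear_combination ((1 * a)) * ha + ((1 * a ^ 2) + (1 * a)) * h2

theorem fix_J4 : N (1 : F) * J4 F * ((N (1 : F)).map (fun x => x ^ 2))ᵀ = J4 F := by
  ext i j
  fin_cases i <;> fin_cases j <;>
    simp [J4, N, Matrix.mul_apply, Fin.sum_univ_four, CharTwo.add_self_eq_zero]

end Basic

section NoChar

variable {F : Type u} [Field F]

theorem J4_mul_J4 : J4 F * J4 F = 1 := by
  ext i j
  fin_cases i <;> fin_cases j <;>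
    simp [J4, Matrix.mul_apply, Fin.sum_univ_four]

theorem J4_map_sq : (J4 F).map (fun x => x ^ 2) = J4 F := by
  ext i j
  fin_cases i <;> fin_cases j <;> simp [J4]

theorem N1_map_sq : (N (1 : F)).map (fun x => x ^ 2) = N 1 := by
  ext i j
  fin_cases i <;> fin_cases j <;> simp [N]

theorem N_ne_one (b : F) : N b ≠ 1 := by
  intro h
  have h1 := congrFun (congrFun h 0) 3
  simp [N] at h1

theorem J4_ne_one : J4 F ≠ 1 := by
  intro h
  have h1 := congrFun (congrFun h 0) 3
  simp [J4] at h1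

theorem J4_ne_zero : J4 F ≠ 0 := by
  intro h
  have h1 := congrFun (congrFun h 0) 3
  simp [J4] at h1

theorem X7_ne_zero (a : F) : X7 a ≠ 0 := by
  intro h
  have h1 := congrFun (congrFun h 0) 2
  simp [X7] at h1

theorem trace_N (b : F) : (N b).trace = b ^ 4 := by
  simp [Matrix.trace, Fin.sum_univ_four, N]

end NoChar

theorem exists_root (F : Type u) [Field F] [Fintype F] [CharP F 2] (hF : Fintype.card F = 8) :
    ∃ a : F, a ^ 3 = a + 1 := by
  classical
  have h2 : (2 : F) = 0 := CharTwo.two_eq_zero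
  obtain ⟨c, hc0, hc1⟩ : ∃ c : F, c ≠ 0 ∧ c ≠ 1 := by
    by_contra hno
    push Not at hno
    have hle : Fintype.card F ≤ 2 := by
      have hsub : (Finset.univ : Finset F) ⊆ {0, 1} := by
        intro c _
        by_cases h0 : c = 0
        · simp [h0]
        · simp [hno c h0]
      calc Fintype.card F = (Finset.univ : Finset F).card := Finset.card_univ.symm
        _ ≤ ({0, 1} : Finset F).card := Finset.card_le_card hsub
        _ ≤ 2 := Finset.card_le_two
    omega
  have h8 : c ^ 8 = c := by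
    have h := FiniteField.pow_card c
    rwa [hF] at h
  have hprod : (c ^ 3 + c + 1) * (c ^ 3 + c ^ 2 + 1) = 0 := by
    have hc1' : c - 1 ≠ 0 := sub_ne_zero.mpr hc1
    have h : c * (c - 1) * ((c ^ 3 + c + 1) * (c ^ 3 + c ^ 2 + 1)) = 0 := by
      linear_combination h8 + ((1 * c ^ 5) + (-1 * c ^ 4)) * h2
    rcases mul_eq_zero.mp h with h | h
    · rcases mul_eq_zero.mp h with h | h
      · exact absurd h hc0
      · exact absurd h hc1'
    · exact h
  rcases mul_eq_zero.mp hprod with h | h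
  · exact ⟨c, by linear_combination h - (c + 1) * h2⟩
  · exact ⟨c + 1, by linear_combination h + (c ^ 2 + c - 1) * h2⟩

theorem pkgEx : PkgEx.{u} := by
  intro hCls F _ _ _ hF
  have h2 : (2 : F) = 0 := CharTwo.two_eq_zero
  have hpow : ∀ b : F, b ^ 8 = b := fun b => by
    have h := FiniteField.pow_card b
    rwa [hF] at h
  obtain ⟨a, ha⟩ := exists_root F hF
  have hN1 : N (1 : F) ^ 5 = 1 := by
    rcases hCls hF (N 1) (pred_N 1 (hpow 1)) with ⟨h, -⟩ | ⟨-, h⟩ | ⟨h, -⟩ | ⟨h, -⟩
    · rw [trace_N] at h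
      exfalso
      have h0 : (1 : F) = 0 := by linear_combination h
      exact one_ne_zero h0
    · exact h
    · rw [trace_N] at h
      exfalso
      have h0 : (1 : F) = 0 := by linear_combination (-1) * h
      exact one_ne_zero h0
    · rw [trace_N] at h
      exfalso
      have h0 : (1 : F) = 0 := by linear_combination (-1) * h
      exact one_ne_zero h0
  have hNa : N a ^ 7 = 1 := by
    rcases hCls hF (N a) (pred_N a (hpow a)) with ⟨h, -⟩ | ⟨h, -⟩ | ⟨-, h⟩ | ⟨h, -⟩
    · rw [trace_N] at h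
      exfalso
      have h0 : (1 : F) = 0 := by
        linear_combination ((1 * a) + (1)) * h + ((-1 * a ^ 2) + (-1 * a) + (-1)) * ha +
          ((-1 * a ^ 2) + (-1 * a)) * h2
      exact one_ne_zero h0
    · rw [trace_N] at h
      exfalso
      have h0 : (1 : F) = 0 := by
        linear_combination ((1 * a ^ 2)) * h + ((-1 * a ^ 3) + (-1 * a) + (-1)) * ha +
          ((-1 * a)) * h2
      exact one_ne_zero h0
    · exact h
    · rw [trace_N] at h
      exfalso
      have h0 : (1 : F) = 0 := by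
        linear_combination ((1 * a ^ 2) + (1 * a) + (1)) * h + ((-1 * a ^ 11) + (-1 * a ^ 10) +
          (-2 * a ^ 9) + (-2 * a ^ 8) + (-2 * a ^ 7) + (-3 * a ^ 6) + (-3 * a ^ 5) + (-5 * a ^ 4) +
          (-6 * a ^ 3) + (-8 * a ^ 2) + (-11 * a) + (-14)) * ha +
          ((-9 * a ^ 2) + (-12 * a) + (-6)) * h2
      exact one_ne_zero h0
  have hNa1 : N (a + 1) ^ 13 = 1 := by
    rcases hCls hF (N (a + 1)) (pred_N (a + 1) (hpow (a + 1))) with
      ⟨h, -⟩ | ⟨h, -⟩ | ⟨h, -⟩ | ⟨-, h⟩
    · rw [trace_N] at h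
      exfalso
      have h0 : (1 : F) = 0 := by
        linear_combination ((1 * a ^ 2)) * h + ((-1 * a ^ 3) + (-4 * a ^ 2) + (-7 * a) + (-9)) * ha +
          ((-6 * a ^ 2) + (-8 * a) + (-4)) * h2
      exact one_ne_zero h0
    · rw [trace_N] at h
      exfalso
      have h0 : (1 : F) = 0 := by
        linear_combination ((1 * a) + (1)) * h + ((-1 * a ^ 2) + (-5 * a) + (-11)) * ha +
          ((-8 * a ^ 2) + (-10 * a) + (-5)) * h2
      exact one_ne_zero h0
    · rw [trace_N] at h
      exfalso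
      have h0 : (1 : F) = 0 := by
        linear_combination ((1 * a ^ 2) + (1 * a) + (1)) * h + ((-1 * a ^ 11) + (-13 * a ^ 10) +
          (-80 * a ^ 9) + (-312 * a ^ 8) + (-874 * a ^ 7) + (-1899 * a ^ 6) + (-3397 * a ^ 5) +
          (-5281 * a ^ 4) + (-7506 * a ^ 3) + (-10180 * a ^ 2) + (-13557 * a) + (-17970)) * ha +
          ((-11902 * a ^ 2) + (-15767 * a) + (-8984)) * h2
      exact one_ne_zero h0
    · exact h
  exact ⟨a, ha, pred_J4, pred_N 1 (hpow 1), pred_N a (hpow a), pred_N (a + 1) (hpow (a + 1)),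
    J4_map_sq, N1_map_sq, fix_J4, fix_X7 a ha, X7_ne_zero a, J4_ne_zero, J4_mul_J4, J4_ne_one,
    hN1, N_ne_one 1, hNa, N_ne_one a, hNa1, N_ne_one (a + 1)⟩

end Cfsg.Agent.Lib.Helper73.PG63
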